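import Cfsg.Agent.H388.KW.Orth
import Cfsg.Agent.H388.KW.OmStr
import Cfsg.Agent.LieClassical.OmegaCenter

/-!
# `NoP 5 3` for the orthogonal groups over `F_3` (helper388, task 3492, S4243)
-/

set_option autoImplicit false
set_option linter.unusedSectionVars false

open Subgroup

namespace Cfsg.Agent.H388.KW

open Cfsg.Agent.H146.KW Cfsg.Agent.H838.KW QuadraticMap
open Cfsg.Agent.H749 Cfsg.Agent.LieClassical.OrthCore Cfsg.Agent.LieClassical.OrthForms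
open Cfsg.Agent.LieClassical.OmegaCenter

variable {F : Type} [Field F] [Finite F]

theorem order_nine (hF : Nat.card F = 3) : orderOf (((Nat.card F : ℤ) ^ 2 : ℤ) : ZMod 5) = 2 := by
  rw [hF]
  have : Fact (Nat.Prime 2) := ⟨Nat.prime_two⟩
  refine orderOf_eq_prime ?_ ?_
  · decide
  · decide

theorem vp_eighty (hF : Nat.card F = 3) : vp 5 (((Nat.card F : ℤ) ^ 2) ^ 2 - 1) = 1 := by
  rw [hF]
  have e : (((3 : ℕ) : ℤ) ^ 2) ^ 2 - 1 = ((5 * 16 : ℕ) : ℤ) := by norm_num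
  rw [e, vp_natCast, Nat.factorization_mul (by norm_num) (by norm_num), Finsupp.add_apply,
    Nat.Prime.factorization_self (by norm_num), Nat.factorization_eq_zero_of_not_dvd (by norm_num)]

/-- the 5-elements of a 3'-subgroup with `PSub 5` of the isometry group are trivial -/
theorem eq_one_of_str (hF : Nat.card F = 3) {k : ℕ} {κ : Type} [Fintype κ] [DecidableEq κ] {q : (κ → F) → F}
    (hs : Str 5 2 k q) {H : Subgroup (Cfsg.isometryGroup F q)} (h : PSub 5 H) (h3 : ¬ 3 ∣ Nat.card H)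
    {x : Cfsg.isometryGroup F q} (hx : x ∈ H) (hxp : ∃ k : ℕ, x ^ 5 ^ k = 1) : x = 1 := by
  obtain ⟨L, _, _, _, L', _, _, ζ, τ, W₀, _, _, _, Q₀, hL, hτ, hζ, hζo, hQ₀, hsim, hord⟩ := hs
  rw [vp_eighty hF] at hζo hord
  have hLfin : Module.Finite F L := Module.Finite.of_finite
  refine eq_one_of_sum hF (W := L × L) (by rw [Module.finrank_prod, hL]) (nondeg_qF (tau_sq_ne hτ hζ))
    (z := rs F (zL τ)) ?_ ?_ hsim ?_ h h3 hx hxp
  · intro u
    show qF F τ (zL τ u) = qF F τ u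
    rw [qF_apply, qF_apply, nQ_zL]
  · rw [orderOf_rs hτ hζ, hζo, pow_one]
  · rw [Fintype.card_fin]
    omega

theorem nondegenerate_of_nondeg {V : Type*} [AddCommGroup V] [Module F V] {Q : QuadraticForm F V} (hQ : Nondeg Q) :
    (polarBilin Q).Nondegenerate :=
  ⟨fun x h => hQ x h, fun y h => hQ y fun x => by
    have := h x
    rw [polarBilin_apply_apply] at this
    rw [polar_comm]
    exact this⟩

/-- **Passage to `PΩ`.** -/
theorem noP_of_str (hF : Nat.card F = 3) {k : ℕ} {κ : Type} [Fintype κ] [DecidableEq κ] {Q : QuadraticForm F (κ → F)}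
    (hQ : Nondeg Q) (hκ : 3 ≤ Fintype.card κ) (hs : Str 5 2 k (⇑Q)) : NoP 5 3 (Cfsg.POmega F (⇑Q)) := by
  have h5p : Fact (Nat.Prime 5) := ⟨by norm_num⟩
  have h3p : Fact (Nat.Prime 3) := ⟨by norm_num⟩
  have hsing : ∃ u : κ → F, u ≠ 0 ∧ Q u = 0 := by
    obtain ⟨w, h0, hw, -⟩ := LieClassical.OrthFinite.exists_sing_perp (Q := Q) (n := 0) ![]
      (by rw [Module.finrank_fintype_fun_eq_card]; omega)
    exact ⟨w, h0, hw⟩
  refine noP_of_central (p := 5) (r := 3) (G := Cfsg.Omega F (⇑Q)) (Z := center (Cfsg.Omega F (⇑Q))) ?_ ?_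
  · intro hd
    obtain ⟨g, hg⟩ := exists_prime_orderOf_dvd_card' (G := center (Cfsg.Omega F (⇑Q))) 3 hd
    have h1 := (mem_center_omega_iff Q (nondegenerate_of_nondeg hQ) hκ hsing (g : Cfsg.Omega F (⇑Q))).1 g.2
    have h2 : g ^ 2 = 1 := by
      refine Subtype.ext (omega_ext ?_)
      show (((((g : Cfsg.Omega F (⇑Q)) ^ 2 : Cfsg.Omega F (⇑Q)) : Cfsg.isometryGroup F (⇑Q)) :
        Matrix.GeneralLinearGroup κ F) : Matrix κ κ F) = 1
      have h3 : (((((g : Cfsg.Omega F (⇑Q)) ^ 2 : Cfsg.Omega F (⇑Q)) : Cfsg.isometryGroup F (⇑Q)) :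
        Matrix.GeneralLinearGroup κ F) : Matrix κ κ F) = (omegaMat (g : Cfsg.Omega F (⇑Q))) ^ 2 := rfl
      rw [h3]
      rcases h1 with h | h
      · rw [h, one_pow]
      · rw [h]; simp
    have h3 : orderOf g ∣ 2 := orderOf_dvd_of_pow_eq_one h2
    rw [hg] at h3
    norm_num at h3
  · intro H hH hH3 x hx ⟨n, hn⟩
    have hle : H.map (Cfsg.Omega F (⇑Q)).subtype ≤ Cfsg.Omega F (⇑Q) := by
      rintro _ ⟨y, _, rfl⟩
      exact y.2
    have e1 : (H.map (Cfsg.Omega F (⇑Q)).subtype).subgroupOf (Cfsg.Omega F (⇑Q)) = H := by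
      rw [Subgroup.subgroupOf, Subgroup.comap_map_eq_self_of_injective (Subgroup.subtype_injective _)]
    have h1 : PSub 5 (H.map (Cfsg.Omega F (⇑Q)).subtype) := PSub.of_subgroupOf_normal hle (by rw [e1]; exact hH)
    have h2 : Nat.card (H.map (Cfsg.Omega F (⇑Q)).subtype) = Nat.card H :=
      (Nat.card_congr (H.equivMapOfInjective _ (Subgroup.subtype_injective _)).toEquiv).symm
    have h3 : (x : Cfsg.isometryGroup F (⇑Q)) = 1 := by
      refine eq_one_of_str hF hs h1 (by rwa [h2]) ⟨x, hx, rfl⟩ ⟨n, ?_⟩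
      exact congrArg Subtype.val hn
    have h4 : x = 1 := Subtype.ext h3
    rw [h4]
    exact one_mem _

variable {F : Type} [Field F] [Fintype F]

theorem noP_pomegaOdd3 (hF : Fintype.card F = 3) {m : ℕ} (hm : 3 ≤ m) :
    NoP 5 3 (Cfsg.POmega F (Cfsg.quadFormOdd m F)) := by
  have h5p : Fact (Nat.Prime 5) := ⟨by norm_num⟩
  have hF' : Nat.card F = 3 := by rw [Nat.card_eq_fintype_card, hF]
  have h2 : (2 : F) ≠ 0 := by
    have := cast_ne_zero_of (p := 2) (F := F) (by rw [hF']; norm_num)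
    exact_mod_cast this
  have hs := strOdd (p := 5) (F := F) (by norm_num) (by rw [hF']; decide) (order_nine hF') (by norm_num) (n := m) (by omega)
  rw [← coe_oddForm] at hs ⊢
  refine noP_of_str hF' (nondeg_oddForm m F h2) ?_ hs
  simp
  omega

theorem noP_pomegaPlus3 (hF : Fintype.card F = 3) {m : ℕ} (hm : 4 ≤ m) :
    NoP 5 3 (Cfsg.POmega F (Cfsg.quadFormPlus m F)) := by
  have h5p : Fact (Nat.Prime 5) := ⟨by norm_num⟩
  have hF' : Nat.card F = 3 := by rw [Nat.card_eq_fintype_card, hF]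
  obtain ⟨k, hk⟩ : ∃ k, ((5 : ℕ) : ℤ) ∣ (Nat.card F : ℤ) ^ m - 1 ∧ k = m / 2 ∨
      ¬ ((5 : ℕ) : ℤ) ∣ (Nat.card F : ℤ) ^ m - 1 ∧ k = (m - 1) / 2 := by
    by_cases h : ((5 : ℕ) : ℤ) ∣ (Nat.card F : ℤ) ^ m - 1
    · exact ⟨_, Or.inl ⟨h, rfl⟩⟩
    · exact ⟨_, Or.inr ⟨h, rfl⟩⟩
  have hs := strPlus (p := 5) (F := F) (by norm_num) (order_nine hF') (by norm_num) (n := m) (by omega) hk
  rw [← coe_plusForm] at hs ⊢
  refine noP_of_str hF' (nondeg_plusForm m F) ?_ hs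
  simp
  omega

theorem noP_pomegaMinus3 (hF : Fintype.card F = 3) {m : ℕ} (hm : 4 ≤ m) {a b : F}
    (hab : ∀ z₁ z₂ : F, z₁ ^ 2 + a * z₁ * z₂ + b * z₂ ^ 2 = 0 → z₁ = 0 ∧ z₂ = 0) :
    NoP 5 3 (Cfsg.POmega F (Cfsg.quadFormMinus (m - 1) F a b)) := by
  have h5p : Fact (Nat.Prime 5) := ⟨by norm_num⟩
  have hF' : Nat.card F = 3 := by rw [Nat.card_eq_fintype_card, hF]
  obtain ⟨k, hk⟩ : ∃ k, ((5 : ℕ) : ℤ) ∣ (Nat.card F : ℤ) ^ m + 1 ∧ k = m / 2 ∨
      ¬ ((5 : ℕ) : ℤ) ∣ (Nat.card F : ℤ) ^ m + 1 ∧ k = (m - 1) / 2 := by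
    by_cases h : ((5 : ℕ) : ℤ) ∣ (Nat.card F : ℤ) ^ m + 1
    · exact ⟨_, Or.inl ⟨h, rfl⟩⟩
    · exact ⟨_, Or.inr ⟨h, rfl⟩⟩
  have hs := strMinus (p := 5) (F := F) (by norm_num) (order_nine hF') (by norm_num) (n := m) (by omega) a b hab hk
  rw [← coe_minusForm] at hs ⊢
  refine noP_of_str hF' (nondeg_minusForm (m - 1) F a b hab) ?_ hs
  simp
  omega

end Cfsg.Agent.H388.KW
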